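import Mathlib

set_option autoImplicit false
set_option linter.style.haveILetI false

namespace Cfsg.Agent.Lib.Helper20.OrbSpan

variable {k V H : Type*} [Field k] [AddCommGroup V] [Module k V] [Group H]

/-- the action of `H` on `V` given by a representation -/
@[reducible] def act (ρ : Representation k H V) : MulAction H V where
  smul h v := ρ h v
  one_smul v := by
    show ρ 1 v = v
    rw [map_one]
    rfl
  mul_smul g h v := by
    show ρ (g * h) v = ρ g (ρ h v)
    rw [map_mul]
    rfl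

theorem orb_eq (ρ : Representation k H V) (a : V) :
    {u : V | ∃ h : H, ρ h a = u} = @MulAction.orbit H V (act ρ).toSMul a := rfl

theorem card_orb (ρ : Representation k H V) (a : V) :
    Nat.card {u : V | ∃ h : H, ρ h a = u} = (@MulAction.stabilizer H V _ (act ρ) a).index := by
  letI := act ρ
  rw [MulAction.index_stabilizer, orb_eq, Nat.card_coe_set_eq]

theorem mem_stab (ρ : Representation k H V) (a : V) (h : H) :
    h ∈ @MulAction.stabilizer H V _ (act ρ) a ↔ ρ h a = a := Iff.rfl

/-- the orbit of `a` under a subgroup -/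
theorem card_suborb (ρ : Representation k H V) (a : V) (K : Subgroup H) :
    Nat.card {u : V | ∃ x ∈ K, ρ x a = u} =
      (@MulAction.stabilizer H V _ (act ρ) a).relIndex K := by
  letI := act ρ
  have h1 : {u : V | ∃ x ∈ K, ρ x a = u} = MulAction.orbit K a := by
    ext u
    constructor
    · rintro ⟨x, hx, rfl⟩
      exact ⟨⟨x, hx⟩, rfl⟩
    · rintro ⟨⟨x, hx⟩, rfl⟩
      exact ⟨x, hx, rfl⟩
  have h2 : MulAction.stabilizer K a = (MulAction.stabilizer H a).subgroupOf K := by
    ext x
    rfl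
  rw [h1, Nat.card_coe_set_eq, ← MulAction.index_stabilizer, h2]
  rfl

theorem trans_of_coprime [Finite H] (ρ : Representation k H V) (a : V) (K : Subgroup H)
    (hcop : (Nat.card {u : V | ∃ h : H, ρ h a = u}).Coprime K.index) :
    ∀ h : H, ∃ x ∈ K, ρ x a = ρ h a := by
  set A := @MulAction.stabilizer H V _ (act ρ) a with hA
  have h1 : (A ⊓ K).index = A.relIndex K * K.index := by
    rw [← Subgroup.inf_relIndex_right A K]
    exact (Subgroup.relIndex_mul_index inf_le_right).symm
  have h2 : A.index ∣ (A ⊓ K).index := Subgroup.index_dvd_of_le inf_le_left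
  rw [card_orb, ← hA] at hcop
  rw [h1] at h2
  have h3 : A.index ∣ A.relIndex K := hcop.dvd_of_dvd_mul_right h2
  have hfin : Set.Finite {u : V | ∃ h : H, ρ h a = u} := Set.finite_range (fun h : H => ρ h a)
  have hsub : {u : V | ∃ x ∈ K, ρ x a = u} ⊆ {u : V | ∃ h : H, ρ h a = u} := by
    rintro u ⟨x, -, rfl⟩
    exact ⟨x, rfl⟩
  have hpos : 0 < A.relIndex K := by
    apply Nat.pos_of_ne_zero
    show (A.subgroupOf K).index ≠ 0
    exact Subgroup.index_ne_zero_of_finite
  have h4 : ({u : V | ∃ h : H, ρ h a = u}).ncard ≤ ({u : V | ∃ x ∈ K, ρ x a = u}).ncard := by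
    rw [← Nat.card_coe_set_eq, ← Nat.card_coe_set_eq, card_orb, card_suborb, ← hA]
    exact Nat.le_of_dvd hpos h3
  have h5 := Set.eq_of_subset_of_ncard_le hsub h4 hfin
  intro h
  have : ρ h a ∈ {u : V | ∃ x ∈ K, ρ x a = u} := by
    rw [h5]
    exact ⟨h, rfl⟩
  exact this

theorem key [Finite H] (ρ : Representation k H V) (a : V)
    (hspan : Submodule.span k {u : V | ∃ h : H, ρ h a = u} = ⊤)
    (K : Subgroup H) (hK : (Nat.card K : k) ≠ 0)
    (htr : ∀ h : H, ∃ x ∈ K, ρ x a = ρ h a) :
    ∃ s : V, (∀ h : H, ρ h s = s) ∧ ∀ b : V, (∀ x ∈ K, ρ x b = b) → ∃ c : k, b = c • s := by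
  classical
  haveI : Fintype K := Fintype.ofFinite K
  let T : V →ₗ[k] V := ∑ x : K, ρ x.1
  have hT : ∀ v, T v = ∑ x : K, ρ x.1 v := by
    intro v
    simp only [T, LinearMap.sum_apply]
  have hTa : ∀ h : H, T (ρ h a) = T a := by
    intro h
    obtain ⟨y, hy, e⟩ := htr h
    rw [← e, hT, hT]
    rw [← Equiv.sum_comp (Equiv.mulRight (⟨y, hy⟩ : K)) (fun x : K => ρ x.1 a)]
    apply Finset.sum_congr rfl
    intro x _
    show ρ x.1 (ρ y a) = ρ (x.1 * y) a
    rw [map_mul]
    rfl
  have hTspan : ∀ v, ∃ c : k, T v = c • T a := by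
    intro v
    have hv : v ∈ Submodule.span k {u : V | ∃ h : H, ρ h a = u} := hspan ▸ Submodule.mem_top
    induction hv using Submodule.span_induction with
    | mem u hu =>
      obtain ⟨h, rfl⟩ := hu
      exact ⟨1, by rw [hTa, one_smul]⟩
    | zero => exact ⟨0, by rw [map_zero, zero_smul]⟩
    | add x y _ _ hx hy =>
      obtain ⟨c, hc⟩ := hx
      obtain ⟨d, hd⟩ := hy
      exact ⟨c + d, by rw [map_add, hc, hd, add_smul]⟩
    | smul r x _ hx =>
      obtain ⟨c, hc⟩ := hx
      exact ⟨r * c, by rw [map_smul, hc, smul_smul]⟩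
  have hTfix : ∀ b, (∀ x ∈ K, ρ x b = b) → T b = (Nat.card K : k) • b := by
    intro b hb
    rw [hT, Finset.sum_congr rfl (fun x _ => hb x.1 x.2), Finset.sum_const, Finset.card_univ,
      Nat.card_eq_fintype_card, Nat.cast_smul_eq_nsmul]
  -- the orbit sum
  have hfin : Set.Finite {u : V | ∃ h : H, ρ h a = u} := Set.finite_range (fun h : H => ρ h a)
  set O : Finset V := hfin.toFinset with hO
  have hmem : ∀ u, u ∈ O ↔ ∃ h : H, ρ h a = u := by
    intro u
    rw [hO, Set.Finite.mem_toFinset]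
    rfl
  set S : V := ∑ u ∈ O, u with hS
  have hSfix : ∀ h : H, ρ h S = S := by
    intro h
    rw [hS, map_sum]
    apply Finset.sum_nbij' (fun u => ρ h u) (fun u => ρ h⁻¹ u)
    · intro u hu
      obtain ⟨g, rfl⟩ := (hmem u).1 hu
      exact (hmem _).2 ⟨h * g, by rw [map_mul]; rfl⟩
    · intro u hu
      obtain ⟨g, rfl⟩ := (hmem u).1 hu
      exact (hmem _).2 ⟨h⁻¹ * g, by rw [map_mul]; rfl⟩
    · intro u _
      show ρ h⁻¹ (ρ h u) = u
      rw [← Module.End.mul_apply, ← map_mul, inv_mul_cancel, map_one]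
      rfl
    · intro u _
      show ρ h (ρ h⁻¹ u) = u
      rw [← Module.End.mul_apply, ← map_mul, mul_inv_cancel, map_one]
      rfl
    · intro u _
      rfl
  have hTS1 : T S = (O.card : k) • T a := by
    rw [hS, map_sum]
    have : ∀ u ∈ O, T u = T a := by
      intro u hu
      obtain ⟨g, rfl⟩ := (hmem u).1 hu
      exact hTa g
    rw [Finset.sum_congr rfl this, Finset.sum_const, Nat.cast_smul_eq_nsmul]
  have hTS2 : T S = (Nat.card K : k) • S := hTfix S (fun x _ => hSfix x)
  -- `O.card` divides `Nat.card K`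
  have hOK : O.card ∣ Nat.card K := by
    have e1 : {u : V | ∃ x ∈ K, ρ x a = u} = {u : V | ∃ h : H, ρ h a = u} := by
      ext u
      constructor
      · rintro ⟨x, -, rfl⟩
        exact ⟨x, rfl⟩
      · rintro ⟨h, rfl⟩
        exact htr h
    have e2 : O.card = Nat.card {u : V | ∃ h : H, ρ h a = u} := by
      rw [Nat.card_coe_set_eq, Set.ncard_eq_toFinset_card _ hfin]
    rw [e2, ← e1, card_suborb]
    exact Subgroup.index_dvd_card _
  have hO0 : (O.card : k) ≠ 0 := by
    obtain ⟨j, hj⟩ := hOK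
    intro h0
    apply hK
    rw [hj, Nat.cast_mul, h0, zero_mul]
  refine ⟨S, hSfix, ?_⟩
  intro b hb
  obtain ⟨c, hc⟩ := hTspan b
  rw [hTfix b hb] at hc
  have e3 : T a = ((O.card : k)⁻¹ * (Nat.card K : k)) • S := by
    rw [mul_smul, ← hTS2, hTS1, smul_smul, inv_mul_cancel₀ hO0, one_smul]
  refine ⟨(Nat.card K : k)⁻¹ * (c * ((O.card : k)⁻¹ * (Nat.card K : k))), ?_⟩
  rw [mul_smul, mul_smul, ← e3, ← hc, smul_smul, inv_mul_cancel₀ hK, one_smul]

theorem finrank_le_one (ρ : Representation k H V) (s : V)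
    (h : ∀ b : V, (∀ x : H, ρ x b = b) → ∃ c : k, b = c • s) :
    Module.finrank k ρ.invariants ≤ 1 := by
  have h1 : ρ.invariants ≤ Submodule.span k {s} := by
    intro b hb
    obtain ⟨c, rfl⟩ := h b ((Representation.mem_invariants ρ b).1 hb)
    exact Submodule.smul_mem _ _ (Submodule.mem_span_singleton_self s)
  calc Module.finrank k ρ.invariants ≤ Module.finrank k (Submodule.span k {s}) :=
        Submodule.finrank_mono h1
    _ ≤ 1 := by
        have := finrank_span_finset_le_card (R := k) ({s} : Finset V)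
        simp only [Finset.coe_singleton, Finset.card_singleton] at this
        exact this

end Cfsg.Agent.Lib.Helper20.OrbSpan
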