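import Mathlib
import Cfsg.Agent.Lib.Helper1.Hall
import Cfsg.Agent.Lib.Helper1.Fitting
import Cfsg.Agent.Lib.Helper5.PSolv

set_option autoImplicit false

namespace Cfsg.Agent.Lib.Helper20

open Subgroup MulAction Pointwise Cfsg Cfsg.Agent.Lib.Helper1

universe u

theorem psolv_exists_normal {p : ℕ} (G : Type u) [Group G] [Finite G] [Nontrivial G]
    (h : IsPSolvable p G) :
    ∃ P : Subgroup G, P.Normal ∧ P ≠ ⊥ ∧ ((Nat.card P).Coprime p ∨ ∃ k, Nat.card P = p ^ k) := by
  obtain ⟨n, H, h0, hn, hmono, hnorm, hfac⟩ := h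
  by_contra hcon
  push Not at hcon
  have key : ∀ i : Fin (n + 1), H i = ⊥ := by
    intro i
    induction i using Fin.induction with
    | zero => exact h0
    | succ i ih =>
      by_contra hne
      have h1 := hcon (H i.succ) (hnorm _) hne
      rcases hfac i with ⟨m, hm⟩ | hc
      · rw [ih, relIndex_bot_left] at hm
        exact h1.2 m hm
      · rw [ih, relIndex_bot_left] at hc
        exact h1.1 hc
  have h1 := key (Fin.last n)
  rw [hn] at h1
  exact top_ne_bot h1

theorem psolv_setup {p : ℕ} [hp : Fact p.Prime] (G : Type u) [Group G] [Finite G] [Nontrivial G]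
    (h : IsPSolvable p G) (m a : ℕ) (hG : Nat.card G = m * p ^ a) (hm : m.Coprime p) :
    ∃ P : Subgroup G, P.Normal ∧ P ≠ ⊥ ∧ Nat.card (G ⧸ P) < Nat.card G ∧
      ((∃ m', m = Nat.card P * m' ∧ Nat.card (G ⧸ P) = m' * p ^ a ∧ m'.Coprime p ∧
          (Nat.card P).Coprime p) ∨
       (∃ a', p ^ a = Nat.card P * p ^ a' ∧ Nat.card (G ⧸ P) = m * p ^ a' ∧ IsPGroup p P ∧
          (Nat.card P).Coprime m)) := by
  obtain ⟨P, hnorm, hne, hcase⟩ := psolv_exists_normal G h
  have hq : Nat.card G = Nat.card (G ⧸ P) * Nat.card P := card_eq_card_quotient_mul_card_subgroup P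
  have hPgt : 1 < Nat.card P := (one_lt_card_iff_ne_bot P).mpr hne
  have hPpos : 0 < Nat.card P := by omega
  have hqpos : 0 < Nat.card (G ⧸ P) := Nat.card_pos
  refine ⟨P, hnorm, hne, by rw [hq]; nlinarith, ?_⟩
  have hdvd : Nat.card P ∣ m * p ^ a := by
    rw [← hG, hq]
    exact dvd_mul_left _ _
  rcases hcase with hc | ⟨k, hk⟩
  · left
    obtain ⟨m', hm'⟩ := (Nat.Coprime.pow_right a hc).dvd_of_dvd_mul_right hdvd
    refine ⟨m', hm', ?_, Nat.Coprime.coprime_dvd_left ⟨Nat.card P, by rw [hm', mul_comm]⟩ hm, hc⟩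
    apply Nat.eq_of_mul_eq_mul_right hPpos
    rw [← hq, hG, hm']
    ring
  · right
    have hPm : (Nat.card P).Coprime m := by
      rw [hk]
      exact Nat.Coprime.pow_left k hm.symm
    have h1 : Nat.card P ∣ p ^ a := hPm.dvd_of_dvd_mul_left hdvd
    rw [hk] at h1
    have hka : k ≤ a := (Nat.pow_dvd_pow_iff_le_right hp.out.one_lt).1 h1
    refine ⟨a - k, ?_, ?_, IsPGroup.of_card hk, hPm⟩
    · rw [hk, ← pow_add]
      congr 1
      omega
    · apply Nat.eq_of_mul_eq_mul_right hPpos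
      rw [← hq, hG, hk, mul_assoc, ← pow_add]
      congr 2
      omega

theorem psolv_exists {p : ℕ} [Fact p.Prime] : ∀ (N : ℕ) (G : Type u) [Group G] [Finite G],
    IsPSolvable p G → Nat.card G = N → ∀ m a : ℕ, N = m * p ^ a → m.Coprime p →
    ∃ H : Subgroup G, Nat.card H = m := by
  intro N
  induction N using Nat.strong_induction_on with
  | _ N ih =>
  intro G _ _ hps hN m a hmn hcop
  rcases subsingleton_or_nontrivial G with hs | hnt
  · refine ⟨⊥, ?_⟩
    have h1 : Nat.card G = 1 := Nat.card_of_subsingleton 1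
    rw [hN, hmn] at h1
    rw [card_bot]
    exact (Nat.eq_one_of_mul_eq_one_right h1).symm
  obtain ⟨P, hnorm, hne, hlt, hcase⟩ := psolv_setup G hps m a (hN.trans hmn) hcop
  have hpsq : IsPSolvable p (G ⧸ P) :=
    Cfsg.Agent.Lib.Helper5.isPSolvable_of_surjective _ (QuotientGroup.mk'_surjective P) hps
  rcases hcase with ⟨m', hm', hq, hc', -⟩ | ⟨a', hn', hq, hpg, hPm⟩
  · obtain ⟨H', hH'⟩ := ih _ (hN ▸ hlt) (G ⧸ P) hpsq rfl m' a hq hc'
    exact ⟨H'.comap (QuotientGroup.mk' P), by rw [card_comap_mk', hH', hm']⟩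
  · obtain ⟨L', hL'⟩ := ih _ (hN ▸ hlt) (G ⧸ P) hpsq rfl m a' hq hcop
    obtain ⟨H, -, hH⟩ := sz_exists_sub P (L'.comap (QuotientGroup.mk' P)) (le_comap_mk' P L')
      le_normalizer_of_normal (by rw [relIndex_comap_mk', hL']; exact hPm)
    exact ⟨H, by rw [hH, relIndex_comap_mk', hL']⟩

/-- a normal `p'`-subgroup lies in every `p`-complement -/
theorem normal_pPrime_le {p : ℕ} [hp : Fact p.Prime] {G : Type u} [Group G] [Finite G]
    (P X : Subgroup G) [P.Normal] (hP : (Nat.card P).Coprime p) (m a : ℕ)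
    (hG : Nat.card G = m * p ^ a) (hm : m.Coprime p) (hX : Nat.card X = m) : P ≤ X := by
  have h1 : Nat.card (X ⊔ P : Subgroup G) ∣ Nat.card X * Nat.card P := card_sup_dvd X P
  have h2 : (Nat.card (X ⊔ P : Subgroup G)).Coprime p :=
    Nat.Coprime.coprime_dvd_left h1 (Nat.Coprime.mul_left (hX ▸ hm) hP)
  have h3 : Nat.card (X ⊔ P : Subgroup G) ∣ m * p ^ a := hG ▸ card_subgroup_dvd_card _
  have h4 : Nat.card (X ⊔ P : Subgroup G) ∣ m := (Nat.Coprime.pow_right a h2).dvd_of_dvd_mul_right h3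
  have hmpos : 0 < m := by rw [← hX]; exact Nat.card_pos
  have h5 : Nat.card (X ⊔ P : Subgroup G) ≤ Nat.card X := hX ▸ Nat.le_of_dvd hmpos h4
  have h6 : X = X ⊔ P := Subgroup.eq_of_le_of_card_ge le_sup_left h5
  rw [h6]
  exact le_sup_right

theorem psolv_conj {p : ℕ} [Fact p.Prime] : ∀ (N : ℕ) (G : Type u) [Group G] [Finite G],
    IsPSolvable p G → Nat.card G = N → ∀ m a : ℕ, N = m * p ^ a → m.Coprime p →
    ∀ H K : Subgroup G, Nat.card H = m → Nat.card K = m →
    ∃ g : G, ∀ h ∈ H, g * h * g⁻¹ ∈ K := by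
  intro N
  induction N using Nat.strong_induction_on with
  | _ N ih =>
  intro G _ _ hps hN m a hmn hcop H K hH hK
  rcases subsingleton_or_nontrivial G with hs | hnt
  · exact ⟨1, fun h _ => by rw [Subsingleton.elim (1 * h * 1⁻¹) 1]; exact K.one_mem⟩
  obtain ⟨P, hnorm, hne, hlt, hcase⟩ := psolv_setup G hps m a (hN.trans hmn) hcop
  have hpsq : IsPSolvable p (G ⧸ P) :=
    Cfsg.Agent.Lib.Helper5.isPSolvable_of_surjective _ (QuotientGroup.mk'_surjective P) hps
  let π := QuotientGroup.mk' P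
  have hπ : Function.Surjective π := QuotientGroup.mk'_surjective P
  have hker : π.ker = P := QuotientGroup.ker_mk' P
  have hmpos : 0 < m := by
    rw [← hH]; exact Nat.card_pos
  have lift : ∀ (g : G) (h : G), π g * π h * (π g)⁻¹ ∈ K.map π → g * h * g⁻¹ ∈ K ⊔ P := by
    intro g h hh
    obtain ⟨k, hk, hk2⟩ := hh
    have h2 : k⁻¹ * (g * h * g⁻¹) ∈ P := by
      rw [← hker, MonoidHom.mem_ker]
      simp only [map_mul, map_inv, hk2]
      group
    have : g * h * g⁻¹ = k * (k⁻¹ * (g * h * g⁻¹)) := by group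
    rw [this]
    exact mul_mem (mem_sup_left hk) (mem_sup_right h2)
  rcases hcase with ⟨m', hm', hq, hc', hPp⟩ | ⟨a', hn', hq, hpg, hPm⟩
  · have hPle : ∀ X : Subgroup G, Nat.card X = m → P ≤ X := fun X hX =>
      normal_pPrime_le P X hPp m a (hN.trans hmn) hcop hX
    have hcardmap : ∀ X : Subgroup G, Nat.card X = m → Nat.card (X.map π) = m' := by
      intro X hX
      have h1 : P.relIndex X * Nat.card P = Nat.card X := by
        have := (P.subgroupOf X).index_mul_card
        rwa [card_subgroupOf_of_le (hPle X hX)] at this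
      rw [← relIndex_ker, hker]
      apply Nat.eq_of_mul_eq_mul_right (Nat.card_pos (α := P))
      rw [h1, hX, hm', mul_comm]
    obtain ⟨b, hb⟩ := ih _ (hN ▸ hlt) (G ⧸ P) hpsq rfl m' a hq hc' (H.map π) (K.map π)
      (hcardmap H hH) (hcardmap K hK)
    obtain ⟨g, rfl⟩ := hπ b
    refine ⟨g, fun h hh => ?_⟩
    have h1 := lift g h (hb _ (mem_map_of_mem π hh))
    rwa [sup_eq_left.mpr (hPle K hK)] at h1
  · have hdisj : ∀ X : Subgroup G, Nat.card X = m → P ⊓ X = ⊥ := fun X hX =>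
      (disjoint_of_coprime_natCard (by rw [hX]; exact hPm)).eq_bot
    have hcardmap : ∀ X : Subgroup G, Nat.card X = m → Nat.card (X.map π) = m := by
      intro X hX
      rw [← relIndex_ker, hker, relIndex_eq_card_of_inf_eq_bot (hdisj X hX), hX]
    obtain ⟨b, hb⟩ := ih _ (hN ▸ hlt) (G ⧸ P) hpsq rfl m a' hq hcop (H.map π) (K.map π)
      (hcardmap H hH) (hcardmap K hK)
    obtain ⟨g, rfl⟩ := hπ b
    have hrel : P.relIndex (K ⊔ P) = m := by
      rw [relIndex_sup_right, relIndex_eq_card_of_inf_eq_bot (hdisj K hK), hK]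
    obtain ⟨x, -, hx⟩ := sz_conj_sub P (K ⊔ P) le_sup_right le_normalizer_of_normal
      (by rw [hrel]; exact hPm) (MulAut.conj g • H) K
      (conj_smul_le_of_forall fun h hh => lift g h (hb _ (mem_map_of_mem π hh))) le_sup_left
      (by rw [card_conj_smul, hH, hrel]) (by rw [hK, hrel])
      (Or.inl (isSolvable_of_isPGroup hpg))
    refine ⟨x * g, fun h hh => ?_⟩
    have h1 : x * (g * h * g⁻¹) * x⁻¹ ∈ K := hx ▸ conj_mem_conj_smul (conj_mem_conj_smul hh)
    simpa [mul_assoc] using h1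

theorem psolv_contain {p : ℕ} [Fact p.Prime] : ∀ (N : ℕ) (G : Type u) [Group G] [Finite G],
    IsPSolvable p G → Nat.card G = N → ∀ m a : ℕ, N = m * p ^ a → m.Coprime p →
    ∀ K : Subgroup G, (Nat.card K).Coprime p →
    ∃ H : Subgroup G, Nat.card H = m ∧ K ≤ H := by
  intro N
  induction N using Nat.strong_induction_on with
  | _ N ih =>
  intro G _ _ hps hN m a hmn hcop K hK
  rcases subsingleton_or_nontrivial G with hs | hnt
  · refine ⟨⊥, ?_, fun x _ => by rw [Subsingleton.elim x 1]; exact one_mem _⟩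
    have h1 : Nat.card G = 1 := Nat.card_of_subsingleton 1
    rw [hN, hmn] at h1
    rw [card_bot]
    exact (Nat.eq_one_of_mul_eq_one_right h1).symm
  obtain ⟨P, hnorm, hne, hlt, hcase⟩ := psolv_setup G hps m a (hN.trans hmn) hcop
  have hpsq : IsPSolvable p (G ⧸ P) :=
    Cfsg.Agent.Lib.Helper5.isPSolvable_of_surjective _ (QuotientGroup.mk'_surjective P) hps
  let π := QuotientGroup.mk' P
  rcases hcase with ⟨m', hm', hq, hc', hPp⟩ | ⟨a', hn', hq, hpg, hPm⟩
  · obtain ⟨H', hH', hKH'⟩ := ih _ (hN ▸ hlt) (G ⧸ P) hpsq rfl m' a hq hc' (K.map π)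
      (Nat.Coprime.coprime_dvd_left (card_map_dvd K π) hK)
    exact ⟨H'.comap π, by rw [card_comap_mk', hH', hm'], (le_comap_map π K).trans (comap_mono hKH')⟩
  · obtain ⟨L', hL', hKL'⟩ := ih _ (hN ▸ hlt) (G ⧸ P) hpsq rfl m a' hq hcop (K.map π)
      (Nat.Coprime.coprime_dvd_left (card_map_dvd K π) hK)
    set L := L'.comap π with hL
    have hPL : P ≤ L := le_comap_mk' P L'
    have hKL : K ≤ L := (le_comap_map π K).trans (comap_mono hKL')
    have hrelL : P.relIndex L = m := by rw [hL, relIndex_comap_mk', hL']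
    obtain ⟨H0, hH0L, hH0⟩ := sz_exists_sub P L hPL le_normalizer_of_normal
      (by rw [hrelL]; exact hPm)
    rw [hrelL] at hH0
    set M := K ⊔ P with hM
    have hML : M ≤ L := sup_le hKL hPL
    have hPK : (Nat.card P).Coprime (Nat.card K) := by
      obtain ⟨k, hk⟩ := IsPGroup.iff_card.1 hpg
      rw [hk]
      exact Nat.Coprime.pow_left k hK.symm
    have hrelM : P.relIndex M = Nat.card K := by
      rw [hM, relIndex_sup_right,
        relIndex_eq_card_of_inf_eq_bot (disjoint_of_coprime_natCard hPK).eq_bot]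
    set K1 := H0 ⊓ M with hK1
    have hPH0 : P ⊓ H0 = ⊥ := (disjoint_of_coprime_natCard (by rw [hH0]; exact hPm)).eq_bot
    have hPK1 : P ⊓ K1 = ⊥ := by
      rw [hK1, ← inf_assoc, hPH0, bot_inf_eq]
    have hK1card : Nat.card K1 = P.relIndex M := by
      have hMle : M ≤ P ⊔ K1 := by
        intro x hx
        obtain ⟨y, hy, h, hh, rfl⟩ := exists_mul_of_card_eq_relIndex P L H0 hPL hH0L
          (by rw [hH0, hrelL]) (by rw [hH0]; exact hPm) x (hML hx)
        refine mul_mem (mem_sup_left hy) (mem_sup_right (mem_inf.mpr ⟨hh, ?_⟩))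
        have : h = y⁻¹ * (y * h) := by group
        rw [this]
        exact M.mul_mem (M.inv_mem (mem_sup_right hy)) hx
      have hle : P ⊔ K1 ≤ M := sup_le le_sup_right inf_le_right
      have heq : M = P ⊔ K1 := le_antisymm hMle hle
      rw [heq, relIndex_sup_left, relIndex_eq_card_of_inf_eq_bot hPK1]
    obtain ⟨x, -, hx⟩ := sz_conj_sub P M le_sup_right le_normalizer_of_normal
      (by rw [hrelM]; exact hPK) K1 K inf_le_right le_sup_left hK1card hrelM.symm
      (Or.inl (isSolvable_of_isPGroup hpg))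
    refine ⟨MulAut.conj x • H0, by rw [card_conj_smul, hH0], fun k hk => ?_⟩
    rw [← hx, mem_conj_smul] at hk
    exact mem_conj_smul.mpr (mem_inf.mp hk).1

end Cfsg.Agent.Lib.Helper20
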