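import Cfsg.Agent.Lib.Helper20.MatrixExt

set_option autoImplicit false

namespace Cfsg.Agent.Lib.Helper20

universe u

open Matrix

theorem center_SL2_char2 (F : Type u) [Field F] [CharP F 2] :
    Subgroup.center (SpecialLinearGroup (Fin 2) F) = ⊥ := by
  rw [eq_bot_iff]
  intro A hA
  obtain ⟨r, hr, hA'⟩ := Matrix.SpecialLinearGroup.mem_center_iff.1 hA
  simp only [Fintype.card_fin] at hr
  have h1 : (r + 1) ^ 2 = 0 := by
    have h2 : (2 : F) = 0 := CharTwo.two_eq_zero
    linear_combination hr + (r + 1) * h2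
  have h2 : r + 1 = 0 := by simpa using h1
  have h3 : r = 1 := by
    have := CharTwo.add_eq_zero.1 h2
    exact this
  rw [Subgroup.mem_bot]
  apply Subtype.ext
  rw [← hA', h3]
  simp

theorem psl2_equiv_sl2 (F : Type u) [Field F] [CharP F 2] :
    Nonempty (ProjectiveSpecialLinearGroup (Fin 2) F ≃* SpecialLinearGroup (Fin 2) F) :=
  ⟨(QuotientGroup.quotientMulEquivOfEq (center_SL2_char2 F)).trans QuotientGroup.quotientBot⟩

/-- Cayley-Hamilton for `SL₂` in characteristic 2. -/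
theorem sl2_sq (F : Type u) [Field F] [CharP F 2] (g : SpecialLinearGroup (Fin 2) F) :
    (g : Matrix (Fin 2) (Fin 2) F) * (g : Matrix (Fin 2) (Fin 2) F)
      = (g 0 0 + g 1 1) • (g : Matrix (Fin 2) (Fin 2) F) + 1 := by
  have hdet : g 0 0 * g 1 1 - g 0 1 * g 1 0 = 1 := by
    have := g.2
    rwa [Matrix.det_fin_two] at this
  have h2 : (2 : F) = 0 := CharTwo.two_eq_zero
  ext i j
  fin_cases i <;> fin_cases j <;>
    simp [Matrix.mul_apply, Fin.sum_univ_two]
  · linear_combination (-1 : F) * hdet - h2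
  · ring
  · ring
  · linear_combination (-1 : F) * hdet - h2

theorem sl2_trace_zero_of_fix (F : Type u) [Field F] [CharP F 2] (g : SpecialLinearGroup (Fin 2) F)
    (v : Fin 2 → F) (hv : v ≠ 0) (hg : (g : Matrix (Fin 2) (Fin 2) F) *ᵥ v = v) :
    g 0 0 + g 1 1 = 0 := by
  have hdet : g 0 0 * g 1 1 - g 0 1 * g 1 0 = 1 := by
    have := g.2
    rwa [Matrix.det_fin_two] at this
  have h2 : (2 : F) = 0 := CharTwo.two_eq_zero
  have h0 : ((g : Matrix (Fin 2) (Fin 2) F) - 1).det = 0 := by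
    apply Matrix.exists_mulVec_eq_zero_iff.1
    exact ⟨v, hv, by rw [Matrix.sub_mulVec, hg, Matrix.one_mulVec, sub_self]⟩
  rw [Matrix.det_fin_two] at h0
  simp at h0
  linear_combination (-1 : F) * h0 + hdet + h2

theorem sl2_sq_eq_one_of_fix (F : Type u) [Field F] [CharP F 2] (g : SpecialLinearGroup (Fin 2) F)
    (v : Fin 2 → F) (hv : v ≠ 0) (hg : (g : Matrix (Fin 2) (Fin 2) F) *ᵥ v = v) :
    g ^ 2 = 1 := by
  apply Subtype.ext
  rw [pow_two]
  show (g : Matrix (Fin 2) (Fin 2) F) * (g : Matrix (Fin 2) (Fin 2) F) = 1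
  rw [sl2_sq, sl2_trace_zero_of_fix F g v hv hg]
  simp

/-- the transvection `[[1,1],[0,1]]`. -/
def sl2T (F : Type u) [Field F] : SpecialLinearGroup (Fin 2) F :=
  ⟨!![1, 1; 0, 1], by simp [Matrix.det_fin_two]⟩

theorem orderOf_sl2T (F : Type u) [Field F] [CharP F 2] : orderOf (sl2T F) = 2 := by
  apply orderOf_eq_prime
  · apply Subtype.ext
    rw [pow_two]
    show (!![1, 1; 0, 1] : Matrix (Fin 2) (Fin 2) F) * !![1, 1; 0, 1] = 1
    have h2 : (1 : F) + 1 = 0 := CharTwo.add_self_eq_zero 1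
    ext i j
    fin_cases i <;> fin_cases j <;> simp [Matrix.mul_apply, Fin.sum_univ_two, h2]
  · intro h
    have := congrArg (fun A : SpecialLinearGroup (Fin 2) F => A 0 1) h
    simp [sl2T] at this

theorem exists_large_samePG_PSL2 (F : Type u) [Field F] [Finite F] [CharP F 2] (N : ℕ) :
    ∃ (H : Type) (_ : Group H) (_ : Fintype H), N < Fintype.card H ∧
      SamePG (ProjectiveSpecialLinearGroup (Fin 2) F) H := by
  classical
  have : Fintype F := Fintype.ofFinite F
  have hfin : Finite (SpecialLinearGroup (Fin 2) F) := inferInstance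
  obtain ⟨H, iG, iF, hN, hs⟩ := exists_large_samePG (F := F) (n := 2) (by norm_num)
    (Matrix.SpecialLinearGroup.toGL : SpecialLinearGroup (Fin 2) F →* GL (Fin 2) F)
    (by have := orderOf_dvd_natCard (sl2T F); rwa [orderOf_sl2T F] at this)
    (by
      intro g v hv hg s hs hs2 ho
      have h1 : g ^ 2 = 1 := sl2_sq_eq_one_of_fix F g v hv hg
      have h2 : orderOf g ∣ 2 := orderOf_dvd_of_pow_eq_one h1
      rw [ho] at h2
      exact hs2 ((Nat.prime_dvd_prime_iff_eq hs Nat.prime_two).1 h2)) N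
  obtain ⟨e⟩ := psl2_equiv_sl2 F
  exact ⟨H, iG, iF, hN, (SamePG.of_mulEquiv e).trans hs⟩

end Cfsg.Agent.Lib.Helper20
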