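import Mathlib
import Cfsg.Agent.Lib.Helper4.Subnormal

set_option autoImplicit false

namespace Cfsg.Agent.Lib.Helper20

open Subgroup
open scoped Pointwise

universe u

variable {G : Type u} [Group G]

/-- the join of all subnormal subgroups of `G` contained in `M` -/
def subnCore (M : Subgroup G) : Subgroup G := sSup {U : Subgroup G | U.IsSubnormal ∧ U ≤ M}

theorem subnCore_le (M : Subgroup G) : subnCore M ≤ M := sSup_le fun _ h => h.2

theorem le_subnCore {M U : Subgroup G} (h1 : U.IsSubnormal) (h2 : U ≤ M) : U ≤ subnCore M :=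
  le_sSup ⟨h1, h2⟩

theorem subnCore_isSubnormal [Finite G] (M : Subgroup G) : (subnCore M).IsSubnormal :=
  Cfsg.Agent.Lib.Helper4.isSubnormal_sSup _ fun _ h => h.1

theorem le_normalizer_subnCore [Finite G] (M : Subgroup G) :
    M ≤ normalizer (subnCore M : Set G) := by
  apply Cfsg.Agent.Lib.Helper4.le_normalizer_of_conj_mem
  intro c hc x hx
  have h1 : (MulAut.conj c • subnCore M).IsSubnormal := (subnCore_isSubnormal M).smul _
  have h2 : MulAut.conj c • subnCore M ≤ M := by
    intro y hy
    obtain ⟨z, hz, rfl⟩ := hy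
    exact mul_mem (mul_mem hc (subnCore_le M hz)) (inv_mem hc)
  exact le_subnCore h1 h2 ⟨x, hx, rfl⟩

theorem subnCore_eq_top_of_normalizer_le [Finite G] (M : Subgroup G)
    (h : normalizer (subnCore M : Set G) ≤ M) : subnCore M = ⊤ := by
  rcases IsSubnormal.iff_eq_top_or_exists.1 (subnCore_isSubnormal M) with h1 | ⟨K, hK, hKs, hKn⟩
  · exact h1
  · exfalso
    rw [normal_subgroupOf_iff_le_normalizer hK.le] at hKn
    exact absurd (le_subnCore hKs (hKn.trans h)) (not_le_of_gt hK)

end Cfsg.Agent.Lib.Helper20
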