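import Cfsg.Agent.Lib.Helper20.MatrixExt
import Cfsg.Prelude.Def_Sz

set_option autoImplicit false

namespace Cfsg.Agent.Lib.Helper20

universe u

open Matrix Cfsg.Lie

section generic
variable {F : Type u} [Field F]

def e1 (g : Matrix (Fin 4) (Fin 4) F) : F := g 0 0 + g 1 1 + g 2 2 + g 3 3
def mn (g : Matrix (Fin 4) (Fin 4) F) (k l i j : Fin 4) : F := g k i * g l j - g l i * g k j
def e2 (g : Matrix (Fin 4) (Fin 4) F) : F :=
  mn g 0 1 0 1 + mn g 0 2 0 2 + mn g 0 3 0 3 + mn g 1 2 1 2 + mn g 1 3 1 3 + mn g 2 3 2 3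
def d3 (g : Matrix (Fin 4) (Fin 4) F) (a b c : Fin 4) : F :=
  g a a * g b b * g c c - g a a * g b c * g c b - g a b * g b a * g c c + g a b * g b c * g c a
    + g a c * g b a * g c b - g a c * g b b * g c a
def e3 (g : Matrix (Fin 4) (Fin 4) F) : F := d3 g 1 2 3 + d3 g 0 2 3 + d3 g 0 1 3 + d3 g 0 1 2

theorem det4 (g : Matrix (Fin 4) (Fin 4) F) : g.det =
    g 0 0 * d3 g 1 2 3
    - g 0 1 * (g 1 0 * g 2 2 * g 3 3 - g 1 0 * g 2 3 * g 3 2 - g 1 2 * g 2 0 * g 3 3 + g 1 2 * g 2 3 * g 3 0 + g 1 3 * g 2 0 * g 3 2 - g 1 3 * g 2 2 * g 3 0)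
    + g 0 2 * (g 1 0 * g 2 1 * g 3 3 - g 1 0 * g 2 3 * g 3 1 - g 1 1 * g 2 0 * g 3 3 + g 1 1 * g 2 3 * g 3 0 + g 1 3 * g 2 0 * g 3 1 - g 1 3 * g 2 1 * g 3 0)
    - g 0 3 * (g 1 0 * g 2 1 * g 3 2 - g 1 0 * g 2 2 * g 3 1 - g 1 1 * g 2 0 * g 3 2 + g 1 1 * g 2 2 * g 3 0 + g 1 2 * g 2 0 * g 3 1 - g 1 2 * g 2 1 * g 3 0) := by
  rw [Matrix.det_succ_row_zero]
  simp [Fin.sum_univ_succ, Matrix.det_fin_three, Fin.succAbove, d3]
  ring

theorem CH4 (g : Matrix (Fin 4) (Fin 4) F) :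
    g * g * g * g - e1 g • (g * g * g) + e2 g • (g * g) - e3 g • g
      + g.det • (1 : Matrix (Fin 4) (Fin 4) F) = 0 := by
  rw [det4]
  ext i j
  fin_cases i <;> fin_cases j <;>
    simp [Matrix.mul_apply, Fin.sum_univ_four, e1, e2, e3, d3, mn] <;> ring

theorem det_sub_one4 (g : Matrix (Fin 4) (Fin 4) F) :
    (g - 1).det = g.det - e3 g + e2 g - e1 g + 1 := by
  rw [det4, det4]
  simp [e1, e2, e3, d3, mn]
  ring

theorem e3_eq_trace_adjugate (g : Matrix (Fin 4) (Fin 4) F) : e3 g = (adjugate g).trace := by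
  simp only [Matrix.trace, Matrix.diag, Fin.sum_univ_four, Matrix.adjugate_fin_succ_eq_det_submatrix]
  simp [Matrix.det_fin_three, Fin.succAbove, e3, d3]
  ring

/-- the antidiagonal matrix -/
def Jm : Matrix (Fin 4) (Fin 4) F := !![0, 0, 0, 1; 0, 0, 1, 0; 0, 1, 0, 0; 1, 0, 0, 0]

theorem Jm_mul_Jm : (Jm : Matrix (Fin 4) (Fin 4) F) * Jm = 1 := by
  ext i j
  fin_cases i <;> fin_cases j <;> simp [Jm, Matrix.mul_apply, Fin.sum_univ_four]

theorem sp4_col (g : GL (Fin 4) F) (hg : g ∈ Sp4 F) (i j : Fin 4) :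
    g.1 0 i * g.1 3 j + g.1 1 i * g.1 2 j + g.1 2 i * g.1 1 j + g.1 3 i * g.1 0 j
      = (Jm : Matrix (Fin 4) (Fin 4) F) i j := by
  have := hg (Pi.single i 1) (Pi.single j 1)
  simp only [altForm4, Units.coeHom_apply, Matrix.mulVec_single_one, Matrix.col_apply] at this
  rw [this]
  fin_cases i <;> fin_cases j <;> simp [Jm]

theorem sp4_mat (g : GL (Fin 4) F) (hg : g ∈ Sp4 F) :
    (g.1)ᵀ * Jm * g.1 = (Jm : Matrix (Fin 4) (Fin 4) F) := by
  ext i j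
  rw [← sp4_col g hg i j]
  simp [Matrix.mul_apply, Fin.sum_univ_four, Jm]
  ring

theorem sp4_inv (g : GL (Fin 4) F) (hg : g ∈ Sp4 F) :
    g.1 * (Jm * (g.1)ᵀ * Jm) = 1 := by
  apply mul_eq_one_comm.1
  calc Jm * (g.1)ᵀ * Jm * g.1 = Jm * ((g.1)ᵀ * Jm * g.1) := by simp only [Matrix.mul_assoc]
    _ = 1 := by rw [sp4_mat g hg, Jm_mul_Jm]

theorem sp4_row (g : GL (Fin 4) F) (hg : g ∈ Sp4 F) (k l : Fin 4) :
    g.1 k 0 * g.1 l 3 + g.1 k 1 * g.1 l 2 + g.1 k 2 * g.1 l 1 + g.1 k 3 * g.1 l 0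
      = (Jm : Matrix (Fin 4) (Fin 4) F) k l := by
  have h1 : g.1 * Jm * (g.1)ᵀ = (Jm : Matrix (Fin 4) (Fin 4) F) := by
    calc g.1 * Jm * (g.1)ᵀ = g.1 * (Jm * (g.1)ᵀ * Jm) * Jm := by
          simp only [Matrix.mul_assoc, Jm_mul_Jm, Matrix.mul_one]
      _ = Jm := by rw [sp4_inv g hg, Matrix.one_mul]
  rw [← h1]
  simp [Matrix.mul_apply, Fin.sum_univ_four, Jm]
  ring

variable [CharP F 2]

theorem sp4_det (g : GL (Fin 4) F) (hg : g ∈ Sp4 F) : g.1.det = 1 := by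
  have h := congrArg Matrix.det (sp4_inv g hg)
  rw [Matrix.det_mul, Matrix.det_mul, Matrix.det_mul, Matrix.det_transpose, Matrix.det_one] at h
  have hJ : (Jm : Matrix (Fin 4) (Fin 4) F).det * (Jm : Matrix (Fin 4) (Fin 4) F).det = 1 := by
    rw [← Matrix.det_mul, Jm_mul_Jm, Matrix.det_one]
  have h2 : (2 : F) = 0 := CharTwo.two_eq_zero
  have h3 : (g.1.det + 1) ^ 2 = 0 := by
    have : g.1.det * g.1.det = 1 := by
      calc g.1.det * g.1.det = g.1.det * g.1.det * ((Jm : Matrix (Fin 4) (Fin 4) F).det * (Jm : Matrix (Fin 4) (Fin 4) F).det) := by rw [hJ, mul_one]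
        _ = 1 := by rw [← h]; ring
    linear_combination this + (g.1.det + 1) * h2
  have h4 : g.1.det + 1 = 0 := by simpa using h3
  exact CharTwo.add_eq_zero.1 h4

theorem sp4_e3 (g : GL (Fin 4) F) (hg : g ∈ Sp4 F) : e3 g.1 = e1 g.1 := by
  have hadj : adjugate g.1 = Jm * (g.1)ᵀ * Jm := by
    calc adjugate g.1 = adjugate g.1 * (g.1 * (Jm * (g.1)ᵀ * Jm)) := by
          rw [sp4_inv g hg, Matrix.mul_one]
      _ = (adjugate g.1 * g.1) * (Jm * (g.1)ᵀ * Jm) := by simp only [Matrix.mul_assoc]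
      _ = Jm * (g.1)ᵀ * Jm := by
          rw [Matrix.adjugate_mul, sp4_det g hg, one_smul, Matrix.one_mul]
  rw [e3_eq_trace_adjugate, hadj, Matrix.trace_mul_comm, ← Matrix.mul_assoc, Jm_mul_Jm,
    Matrix.one_mul, Matrix.trace_transpose]
  simp [Matrix.trace, Fin.sum_univ_four, e1]

theorem sp4_e2 (g : GL (Fin 4) F) (hg : g ∈ Sp4 F) : e2 g.1 = (star4 g.1).trace := by
  have hc := sp4_col g hg 0 3
  have hr := sp4_row g hg 1 2
  have h2 : (2 : F) = 0 := CharTwo.two_eq_zero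
  simp only [Jm, Matrix.of_apply, Matrix.cons_val', Matrix.cons_val_zero, Matrix.cons_val_one] at hc hr
  simp [Matrix.trace, Fin.sum_univ_four, star4, pairOf, e2, mn] at hc hr ⊢
  linear_combination hc + hr
    + (1 - g.1 1 0 * g.1 2 3 - g.1 2 0 * g.1 1 3 - g.1 3 0 * g.1 0 3 - g.1 2 1 * g.1 1 2) * h2

theorem minor_mul (g h : Matrix (Fin 4) (Fin 4) F) (k l i j : Fin 4)
    (Hg : g k 0 * g l 3 + g k 1 * g l 2 + g k 2 * g l 1 + g k 3 * g l 0 = 0)
    (Hh : h 0 i * h 3 j + h 1 i * h 2 j + h 2 i * h 1 j + h 3 i * h 0 j = 0) :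
    mn (g * h) k l i j = mn g k l 0 1 * mn h 0 1 i j + mn g k l 0 2 * mn h 0 2 i j
      + mn g k l 1 3 * mn h 1 3 i j + mn g k l 2 3 * mn h 2 3 i j := by
  have h2 : (2 : F) = 0 := CharTwo.two_eq_zero
  simp only [mn, Matrix.mul_apply, Fin.sum_univ_four]
  linear_combination (h 0 i * h 3 j - h 3 i * h 0 j) * Hg + (g k 1 * g l 2 - g l 1 * g k 2) * Hh
    - ((g k 3 * g l 0 + g k 2 * g l 1) * (h 0 i * h 3 j - h 3 i * h 0 j)
      + (g k 1 * g l 2 - g l 1 * g k 2) * (h 0 i * h 3 j - h 3 i * h 0 j)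
      + (g k 1 * g l 2 - g l 1 * g k 2) * (h 3 i * h 0 j + h 2 i * h 1 j)) * h2

omit [CharP F 2] in
theorem star4_apply (g : Matrix (Fin 4) (Fin 4) F) (p r : Fin 4) :
    star4 g p r = mn g (pairOf p).1 (pairOf p).2 (pairOf r).1 (pairOf r).2 := rfl

omit [CharP F 2] in
theorem Jm_pairOf (p : Fin 4) : (Jm : Matrix (Fin 4) (Fin 4) F) (pairOf p).1 (pairOf p).2 = 0 := by
  fin_cases p <;> simp [Jm, pairOf]

theorem star4_mul (g h : GL (Fin 4) F) (hg : g ∈ Sp4 F) (hh : h ∈ Sp4 F) :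
    star4 (g.1 * h.1) = star4 g.1 * star4 h.1 := by
  ext p r
  rw [Matrix.mul_apply, Fin.sum_univ_four]
  simp only [star4_apply]
  rw [minor_mul g.1 h.1 _ _ _ _ ((sp4_row g hg _ _).trans (Jm_pairOf p))
    ((sp4_col h hh _ _).trans (Jm_pairOf r))]
  rfl

omit [CharP F 2] in
theorem star4_one : star4 (1 : Matrix (Fin 4) (Fin 4) F) = 1 := by
  have h0 : pairOf 0 = (0, 1) := rfl
  have h1 : pairOf 1 = (0, 2) := rfl
  have h2 : pairOf 2 = (1, 3) := rfl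
  have h3 : pairOf 3 = (2, 3) := rfl
  ext p r
  rw [star4_apply]
  fin_cases p <;> fin_cases r <;> simp [mn, h0, h1, h2, h3]

/-- `x ↦ x ^ (2 ^ k)` as a ring homomorphism. -/
def thetaHom (F : Type u) [Field F] [CharP F 2] (k : ℕ) : F →+* F where
  toFun x := x ^ (2 ^ k)
  map_one' := one_pow _
  map_mul' x y := mul_pow x y _
  map_zero' := zero_pow (by positivity)
  map_add' x y := add_pow_char_pow x y 2 k

theorem thetaHom_coe (k : ℕ) : (fun x : F => x ^ (2 ^ k)) = ⇑(thetaHom F k) := rfl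

/-- the defining property of the Suzuki group -/
def SzProp (e : ℕ) (g : GL (Fin 4) F) : Prop :=
  g ∈ Sp4 F ∧ star4 (g : Matrix (Fin 4) (Fin 4) F)
    = (g : Matrix (Fin 4) (Fin 4) F).map (fun x => x ^ e)

theorem szProp_of_mem (k : ℕ) (g : GL (Fin 4) F) (hg : g ∈ Sz F (2 ^ k)) : SzProp (2 ^ k) g := by
  unfold Sz at hg
  induction hg using Subgroup.closure_induction with
  | mem x hx => exact hx
  | one =>
    refine ⟨one_mem _, ?_⟩
    rw [Units.val_one, star4_one, thetaHom_coe, Matrix.map_one _ (map_zero _) (map_one _)]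
  | mul x y _ _ hx hy =>
    refine ⟨mul_mem hx.1 hy.1, ?_⟩
    rw [Units.val_mul, star4_mul x y hx.1 hy.1, hx.2, hy.2, thetaHom_coe, Matrix.map_mul]
  | inv x _ hx =>
    refine ⟨inv_mem hx.1, ?_⟩
    have h1 : star4 x.1 * star4 (x⁻¹).1 = 1 := by
      rw [← star4_mul x x⁻¹ hx.1 (inv_mem hx.1), ← Units.val_mul, mul_inv_cancel, Units.val_one,
        star4_one]
    have h2 : x.1.map (thetaHom F k) * (x⁻¹).1.map (thetaHom F k) = 1 := by
      rw [← Matrix.map_mul, ← Units.val_mul, mul_inv_cancel, Units.val_one,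
        Matrix.map_one _ (map_zero _) (map_one _)]
    rw [hx.2, thetaHom_coe] at h1
    have h3 := mul_eq_one_comm.1 h2
    rw [thetaHom_coe]
    calc star4 (x⁻¹).1 = ((x⁻¹).1.map (thetaHom F k) * x.1.map (thetaHom F k)) * star4 (x⁻¹).1 := by
          rw [h3, Matrix.one_mul]
      _ = (x⁻¹).1.map (thetaHom F k) := by rw [Matrix.mul_assoc, h1, Matrix.mul_one]

theorem pow_four_eq_one_of_fix (k : ℕ) (g : GL (Fin 4) F) (hg : SzProp (2 ^ k) g)
    (v : Fin 4 → F) (hv : v ≠ 0) (hgv : g.1 *ᵥ v = v) : g ^ 4 = 1 := by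
  have h2 : (2 : F) = 0 := CharTwo.two_eq_zero
  have hdet := sp4_det g hg.1
  have he3 := sp4_e3 g hg.1
  have he2 : e2 g.1 = (e1 g.1) ^ (2 ^ k) := by
    rw [sp4_e2 g hg.1, hg.2]
    simp only [Matrix.trace, Matrix.diag, Fin.sum_univ_four, Matrix.map_apply, e1]
    exact (by simp only [map_add]; rfl :
      thetaHom F k (g.1 0 0 + g.1 1 1 + g.1 2 2 + g.1 3 3) = _).symm
  have h0 : (g.1 - 1).det = 0 := by
    apply Matrix.exists_mulVec_eq_zero_iff.1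
    exact ⟨v, hv, by rw [Matrix.sub_mulVec, hgv, Matrix.one_mulVec, sub_self]⟩
  rw [det_sub_one4, hdet, he3] at h0
  have he2' : e2 g.1 = 0 := by linear_combination h0 + (e1 g.1 - 1) * h2
  have he1 : e1 g.1 = 0 := by
    rw [he2] at he2'
    exact pow_eq_zero_iff (by positivity) |>.1 he2'
  have hCH := CH4 g.1
  rw [he3, he1, he2', hdet] at hCH
  simp only [zero_smul, sub_zero, add_zero, one_smul] at hCH
  apply Units.ext
  have h5 : g.1 * g.1 * g.1 * g.1 = 1 := by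
    have h6 : g.1 * g.1 * g.1 * g.1 = -1 := eq_neg_of_add_eq_zero_left hCH
    rw [h6]
    ext i j
    simp [CharTwo.neg_eq]
  simpa [pow_succ] using h5

def Jgl (F : Type u) [Field F] : GL (Fin 4) F := ⟨Jm, Jm, Jm_mul_Jm, Jm_mul_Jm⟩

theorem Jgl_mem (k : ℕ) : Jgl F ∈ Sz F (2 ^ k) := by
  apply Subgroup.subset_closure
  refine ⟨?_, ?_⟩
  · intro u v
    simp [altForm4, Jgl, Jm, Matrix.mulVec, dotProduct, Fin.sum_univ_four]
    ring
  · have h0 : pairOf 0 = (0, 1) := rfl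
    have h1 : pairOf 1 = (0, 2) := rfl
    have h2 : pairOf 2 = (1, 3) := rfl
    have h3 : pairOf 3 = (2, 3) := rfl
    ext p r
    rw [star4_apply]
    fin_cases p <;> fin_cases r <;> simp [mn, h0, h1, h2, h3, Jgl, Jm, CharTwo.neg_eq]

omit [CharP F 2] in
theorem Jgl_sq : Jgl F ^ 2 = 1 := by
  apply Units.ext
  rw [pow_two]
  exact Jm_mul_Jm

omit [CharP F 2] in
theorem Jgl_ne_one : Jgl F ≠ 1 := by
  intro h
  have := congrArg (fun A : GL (Fin 4) F => A.1 0 0) h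
  simp [Jgl, Jm] at this

end generic

theorem charP_two_of_card {F : Type u} [Field F] [Fintype F] {k : ℕ} (h : Fintype.card F = 2 ^ k) :
    CharP F 2 := by
  obtain ⟨p, hp⟩ := CharP.exists F
  obtain ⟨n, hpp, hn⟩ := FiniteField.card F p
  have h1 : p ∣ 2 ^ k := by rw [← h, hn]; exact dvd_pow_self p n.ne_zero
  have h2 : p = 2 := (Nat.prime_dvd_prime_iff_eq hpp Nat.prime_two).1 (hpp.dvd_of_dvd_pow h1)
  subst h2
  exact hp

theorem exists_large_samePG_Sz (F : Type u) [Field F] [Fintype F] [CharP F 2] (k : ℕ) (N : ℕ) :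
    ∃ (H : Type) (_ : Group H) (_ : Fintype H), N < Fintype.card H ∧
      SamePG ↥(Sz F (2 ^ k)) H := by
  classical
  apply exists_large_samePG (F := F) (n := 4) (by norm_num) (Sz F (2 ^ k)).subtype
  · have ho : orderOf (⟨Jgl F, Jgl_mem k⟩ : ↥(Sz F (2 ^ k))) = 2 := by
      apply orderOf_eq_prime
      · apply Subtype.ext
        exact Jgl_sq
      · intro h
        exact Jgl_ne_one (congrArg Subtype.val h)
    have h := orderOf_dvd_natCard (⟨Jgl F, Jgl_mem k⟩ : ↥(Sz F (2 ^ k)))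
    rwa [ho] at h
  · intro g v hv hg s hs hs2 ho
    obtain ⟨g, hgm⟩ := g
    have hg' : (g : Matrix (Fin 4) (Fin 4) F) *ᵥ v = v := hg
    have h1 : g ^ 4 = 1 :=
      pow_four_eq_one_of_fix k g (szProp_of_mem k g hgm) v hv hg'
    have h2 : (⟨g, hgm⟩ : ↥(Sz F (2 ^ k))) ^ 4 = 1 := Subtype.ext h1
    have h3 : orderOf (⟨g, hgm⟩ : ↥(Sz F (2 ^ k))) ∣ 4 := orderOf_dvd_of_pow_eq_one h2
    rw [ho] at h3
    have h4 : s ∣ 2 := hs.dvd_of_dvd_pow (show s ∣ 2 ^ 2 by norm_num; exact h3)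
    exact hs2 ((Nat.prime_dvd_prime_iff_eq hs Nat.prime_two).1 h4)

end Cfsg.Agent.Lib.Helper20
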